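import Cfsg.Agent.H859.S62.Emb
import Cfsg.Agent.H942.S62.Iface

/-!
# S5919, task D1: `EmbO8` (helper859)
-/

set_option autoImplicit false

namespace Cfsg.Agent.H859.S62

open Cfsg Matrix
open Cfsg.Agent.StdO8.Model Cfsg.Agent.StdO8.Code
open Cfsg.Agent.H245.O8Refl (v0 q_v0 q_v0_ne orbit_eq card_stab ns_ne)
open Cfsg.Agent.H942.S62 (EmbO8 P1 e0 t0 y0 mv)

theorem io_e0 : io e0 = dec 2 := by
  funext i
  revert i
  decide +kernel

theorem q_e0 : q (io e0) = 0 := by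
  rw [io_e0, q_dec]; decide

theorem dec19 : dec 19 = v0 + io e0 := by
  rw [io_e0, ← dec17, ← dec_xor]; rfl

theorem t0_mv : ∀ x : W6, mv t0 x = x + sympForm 3 (ZMod 2) e0 x • e0 := by decide +kernel

theorem ph_t0 : ph t0 = ⟨X (io e0) v0, X_mem _ _⟩ := by
  have hB : B (io e0) v0 = 0 := B_io_v0 _
  have hfix : X (io e0) v0 v0 = v0 := by
    rw [X_apply' q_e0 hB, hB, B_self]
    simp
  have h1 : pm ⟨⟨X (io e0) v0, X_mem _ _⟩, hfix⟩ = t0 := by
    apply Subtype.ext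
    apply Matrix.mulVec_injective
    funext x
    have h2 : mv t0 x = x + sympForm 3 (ZMod 2) e0 x • e0 := t0_mv x
    show Ms _ *ᵥ x = mv t0 x
    rw [h2, Ms_mulVec]
    show pj (X (io e0) v0 (io x)) = _
    rw [X_apply' q_e0 hB, B_io, B_comm v0, B_io_v0, q_v0, map_add, map_add, map_add, map_smul, map_smul, map_smul, pj_io,
      pj_io, pj_v0, one_mul]
    simp
  rw [← h1, ph_pm]

theorem embO8 : EmbO8 := by
  -- an element moving `v0` to `v0 + e0`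
  have hq19 : q (dec 19) = 1 := by rw [q_dec]; decide
  obtain ⟨h, hh⟩ : ∃ h : Om, ((h : Om) : V ≃ₗ[ZMod 2] V) v0 = dec 19 := by
    have h1 : dec 19 ∈ MulAction.orbit Om v0 := by
      rw [orbit_eq]; exact hq19
    obtain ⟨h, hh⟩ := h1
    exact ⟨h, hh⟩
  refine ⟨ph, (MulAut.conj h).toMonoidHom.comp ph, ph_inj, (MulAut.conj h).injective.comp ph_inj, ?_, ?_, ?_, ?_⟩
  · have h1 : ph.range = Sn 17 := by
      rw [ph_range]
      show MulAction.stabilizer Om v0 = MulAction.stabilizer Om (dec 17)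
      rw [dec17]
    have h2 : ((MulAut.conj h).toMonoidHom.comp ph).range = Sn 19 := by
      ext g
      constructor
      · rintro ⟨x, rfl⟩
        show ((h * ph x * h⁻¹ : Om) : V ≃ₗ[ZMod 2] V) (dec 19) = dec 19
        have h3 : ((h⁻¹ : Om) : V ≃ₗ[ZMod 2] V) (dec 19) = v0 := by
          rw [← hh]
          show ((h⁻¹ * h : Om) : V ≃ₗ[ZMod 2] V) v0 = v0
          rw [inv_mul_cancel]; rfl
        show ((h : Om) : V ≃ₗ[ZMod 2] V) (((ph x : Om) : V ≃ₗ[ZMod 2] V) (((h⁻¹ : Om) : V ≃ₗ[ZMod 2] V) (dec 19))) = dec 19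
        rw [h3, ph_v0, hh]
      · intro hg
        have hg' : ((g : Om) : V ≃ₗ[ZMod 2] V) (dec 19) = dec 19 := hg
        have h3 : h⁻¹ * g * h ∈ ph.range := by
          rw [ph_range, mem_St]
          show ((h⁻¹ : Om) : V ≃ₗ[ZMod 2] V) (((g : Om) : V ≃ₗ[ZMod 2] V) (((h : Om) : V ≃ₗ[ZMod 2] V) v0)) = v0
          rw [hh, hg', ← hh]
          show ((h⁻¹ * h : Om) : V ≃ₗ[ZMod 2] V) v0 = v0
          rw [inv_mul_cancel]; rfl
        obtain ⟨x, hx⟩ := h3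
        refine ⟨x, ?_⟩
        show h * ph x * h⁻¹ = g
        rw [hx]; group
    rw [h1, h2]
    exact sup_eq_top
  · intro g hg
    have hg0 : mv g e0 = e0 := hg
    obtain ⟨c, hc⟩ := ph_form g e0
    have hg1 : mw g e0 = e0 := hg0
    rw [hg1] at hc
    have h3 := O8_q (Om_le (ph g).2) (io e0)
    rw [hc, q_add, B_smul_right, B_io_v0, mul_zero, add_zero, q_smul_v0] at h3
    have h4 : c = 0 := left_eq_add.1 h3.symm
    rw [h4, zero_smul, add_zero] at hc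
    have h5 : h⁻¹ * ph g * h ∈ ph.range := by
      rw [ph_range, mem_St]
      show ((h⁻¹ : Om) : V ≃ₗ[ZMod 2] V) (((ph g : Om) : V ≃ₗ[ZMod 2] V) (((h : Om) : V ≃ₗ[ZMod 2] V) v0)) = v0
      rw [hh, dec19, map_add, ph_v0, hc, ← dec19, ← hh]
      show ((h⁻¹ * h : Om) : V ≃ₗ[ZMod 2] V) v0 = v0
      rw [inv_mul_cancel]; rfl
    obtain ⟨x, hx⟩ := h5
    refine ⟨x, ?_⟩
    show h * ph x * h⁻¹ = ph g
    rw [hx]; group
  · exact ⟨v0, ns_ne q_v0, ph_v0 y0⟩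
  · rw [ph_t0]
    exact ⟨io e0, v0, q_e0, by rw [io_e0]; decide +kernel, B_io_v0 _, q_v0, rfl⟩

end Cfsg.Agent.H859.S62
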